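import Cfsg.Agent.H470.EPO.OwnR1Fin
import Cfsg.Agent.H424.EPX.TF4

/-!
# S5745: the own characteristic cells (helper470)

`own_cell` : `Own p G` for `G` simple with `HasFilt p G` from the four rank one families (`R1All`), the small rank one
groups and (`p = 2`) `OwnQ2 G`. The seven families.
-/

set_option autoImplicit false
set_option linter.unusedSectionVars false

namespace Cfsg.Agent.H470.EPO

open Cfsg.Agent.H284 Cfsg.Agent.H209.EPX Cfsg.Agent.KFacts.RgdFilt Cfsg.Agent.H542.EPX Cfsg.Agent.H218.OWN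
open Cfsg.Agent.ChevalleyStructure.CoxeterGeomTypes Cfsg.Agent.Nodes.RGDChev

/-- no small rank one socle, `k = 1` -/
def OwnSmall (p : ℕ) (G : Type) [Group G] : Prop :=
  ∀ (H N : Subgroup G) (T : Type) [Group T] (e : N ≃* (Fin 1 → T)), EPS H N e → SmallR1 p T → False

/-- **an own characteristic cell** -/
theorem own_cell (hR : R1All) {G : Type} [Group G] [Finite G] [IsSimpleGroup G] {p : ℕ} [Fact p.Prime]
    (hG : HasFilt p G) (hsm : OwnSmall p G) (h2 : p = 2 → OwnQ2 G) : Own p G :=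
  own_of hG h2 (ownR1_fin hR hG hsm) fun hp H N T _ k e h hT => by
    subst hp
    exact Cfsg.Agent.H424.EPX.own_TF4 hG H N T k e h hT

variable (hR : R1All)

include hR

theorem own_e8 (F : Type) [Field F] [Fintype F] (p : ℕ) [Fact p.Prime] [CharP F p]
    [IsSimpleGroup ↥(Lie.chevE8.group F)] (hsm : OwnSmall p ↥(Lie.chevE8.group F))
    (h2 : p = 2 → OwnQ2 ↥(Lie.chevE8.group F)) : Own p ↥(Lie.chevE8.group F) :=
  own_cell hR (fq_group (by simp [IsType, typeList] : IsType Lie.chevE8 8 CoxeterMatrix.E₈) F p).hasFilt hsm h2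

theorem own_e7 (F : Type) [Field F] [Fintype F] (p : ℕ) [Fact p.Prime] [CharP F p]
    [IsSimpleGroup ↥(Lie.chevE7.group F)] (hsm : OwnSmall p ↥(Lie.chevE7.group F))
    (h2 : p = 2 → OwnQ2 ↥(Lie.chevE7.group F)) : Own p ↥(Lie.chevE7.group F) :=
  own_cell hR (fq_group (by simp [IsType, typeList] : IsType Lie.chevE7 7 CoxeterMatrix.E₇) F p).hasFilt hsm h2

theorem own_e6 (F : Type) [Field F] [Fintype F] (p : ℕ) [Fact p.Prime] [CharP F p]
    [IsSimpleGroup ↥(Lie.chevE6.group F)] (hsm : OwnSmall p ↥(Lie.chevE6.group F))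
    (h2 : p = 2 → OwnQ2 ↥(Lie.chevE6.group F)) : Own p ↥(Lie.chevE6.group F) :=
  own_cell hR (fq_group (by simp [IsType, typeList] : IsType Lie.chevE6 6 CoxeterMatrix.E₆) F p).hasFilt hsm h2

theorem own_f4 (F : Type) [Field F] [Fintype F] (p : ℕ) [Fact p.Prime] [CharP F p]
    [IsSimpleGroup ↥(Lie.chevF4.group F)] (hsm : OwnSmall p ↥(Lie.chevF4.group F))
    (h2 : p = 2 → OwnQ2 ↥(Lie.chevF4.group F)) : Own p ↥(Lie.chevF4.group F) :=
  own_cell hR (fq_group (by simp [IsType, typeList] : IsType Lie.chevF4 4 CoxeterMatrix.F₄) F p).hasFilt hsm h2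

theorem own_g2 (F : Type) [Field F] [Fintype F] (p : ℕ) [Fact p.Prime] [CharP F p]
    [IsSimpleGroup ↥(Lie.chevG2.group F)] (hsm : OwnSmall p ↥(Lie.chevG2.group F))
    (h2 : p = 2 → OwnQ2 ↥(Lie.chevG2.group F)) : Own p ↥(Lie.chevG2.group F) :=
  own_cell hR (fq_group (by simp [IsType, typeList] : IsType Lie.chevG2 2 CoxeterMatrix.G₂) F p).hasFilt hsm h2

theorem own_te6 (K : Type) [Field K] [Fintype K] (p q : ℕ) [Fact p.Prime] [CharP K p]
    [IsSimpleGroup ↥(Lie.twistedE6 K q)] (hq : IsPrimePow q) (hK : Fintype.card K = q ^ 2)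
    (hsm : OwnSmall p ↥(Lie.twistedE6 K q)) (h2 : p = 2 → OwnQ2 ↥(Lie.twistedE6 K q)) :
    Own p ↥(Lie.twistedE6 K q) :=
  own_cell hR (fq_twE6 hq hK p).hasFilt hsm h2

theorem own_td4 (K : Type) [Field K] [Fintype K] (p q : ℕ) [Fact p.Prime] [CharP K p]
    [IsSimpleGroup ↥(Lie.twistedD4 K q)] (hq : IsPrimePow q) (hK : Fintype.card K = q ^ 3)
    (hsm : OwnSmall p ↥(Lie.twistedD4 K q)) (h2 : p = 2 → OwnQ2 ↥(Lie.twistedD4 K q)) :
    Own p ↥(Lie.twistedD4 K q) :=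
  own_cell hR (fq_twD4 hq hK p).hasFilt hsm h2

end Cfsg.Agent.H470.EPO
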