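import Cfsg.Agent.H470.EPO.R1Sys
import Cfsg.Agent.H470.EPO.OwnT
import Cfsg.Agent.H218.OWN.Pack
import Cfsg.Agent.H470.EPO.R1Tr

/-!
# Rank one data from a parabolic system, and for `PSL₂`, `PSU₃` (all sizes) (helper470)
-/

set_option autoImplicit false
set_option linter.unusedSectionVars false

namespace Cfsg.Agent.H470.EPO

open Cfsg.Agent.H284 Cfsg.Agent.H737.EPO

theorem R1.ofPSys {T : Type*} [Group T] [Finite T] [IsSimpleGroup T] (hT : ∃ a b : T, a * b ≠ b * a) {p : ℕ}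
    [Fact p.Prime] {I : Type*} [Unique I] (S : PSys T p I) (hS : Rk S) : Nonempty (R1 p T) := by
  have h1 : ({default} : Set I) = Set.univ := by
    ext x
    simp [Unique.eq_default x]
  have hV : S.V Set.univ = ⊥ := by
    have hn : (S.V Set.univ).Normal := by
      rw [← Subgroup.normalizer_eq_top_iff, eq_top_iff, ← S.P_univ]
      exact S.V_norm _
    rcases hn.eq_bot_or_eq_top with h2 | h2
    · exact h2
    · exfalso
      apply not_isPGroup (p := p) hT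
      have h3 := S.V_p Set.univ
      rw [h2] at h3
      exact h3.of_equiv Subgroup.topEquiv
  have htop : ∀ g : T, g ∈ S.P {default} := fun g => by rw [h1, S.P_univ]; trivial
  have hPne : S.P ∅ ≠ ⊤ := S.P_ne_top Set.empty_ne_univ
  obtain ⟨g₀, hg₀⟩ : ∃ g₀, g₀ ∉ S.P ∅ := by
    by_contra hcon
    push Not at hcon
    exact hPne (eq_top_iff.2 fun x _ => hcon x)
  have hUP : S.V ∅ ≤ S.P ∅ := S.V_le ∅
  obtain ⟨u, hu, hug⟩ := hS.trans (htop g₀⁻¹) (fun h => hg₀ (by have := inv_mem h; rwa [inv_inv] at this)) (htop g₀) hg₀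
  have hwB : u⁻¹ * g₀ ∉ S.P ∅ := fun h => hg₀ (by
    have := (S.P ∅).mul_mem (hUP hu) h
    rwa [mul_inv_cancel_left] at this)
  refine ⟨⟨S.V ∅, S.P ∅, u⁻¹ * g₀, S.U_norm, S.U_p, S.U_max, hwB, ?_, fun g hg => ?_, ?_⟩⟩
  · have h2 := (S.P ∅).inv_mem hug
    have e1 : u⁻¹ * g₀ * (u⁻¹ * g₀) = u⁻¹ * (g₀⁻¹ * u * g₀⁻¹)⁻¹ := by group
    rw [e1]
    exact (S.P ∅).mul_mem ((S.P ∅).inv_mem (hUP hu)) h2
  · obtain ⟨v, hv, h2⟩ := hS.trans (htop (u⁻¹ * g₀)) hwB (htop g) hg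
    exact ⟨v, hv, (g⁻¹ * v * (u⁻¹ * g₀))⁻¹, (S.P ∅).inv_mem h2, by group⟩
  · rw [Subgroup.eq_bot_iff_forall]
    intro x hx
    obtain ⟨i, -, h2⟩ := hS.desc (htop (u⁻¹ * g₀)) hwB
    have h3 := h2 x hx.1 (mem_cj.1 hx.2)
    have h4 : ({i} : Set I) = Set.univ := by rw [← h1, Unique.eq_default i]
    rw [h4, hV] at h3
    exact h3

open Cfsg.Agent.ChevalleyStructure.CoxeterGeomTypes Cfsg.Agent.KFacts.RgdFilt Cfsg.Agent.H218.OWN in
/-- rank one data from a filtered root group datum of rank one -/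
theorem R1.ofFiltQ {T S : Type*} [Group T] [Group S] [Finite T] [IsSimpleGroup T] (hT : ∃ a b : T, a * b ≠ b * a)
    {p : ℕ} [Fact p.Prime] {M : CoxeterMatrix (Fin 1)} {q : Fin 1 → ℕ} (hQ : HasFiltQ p M q S) (e : T ≃* S) :
    Nonempty (R1 p T) := by
  have : Finite S := Finite.of_equiv T e.toEquiv
  have hs : IsSimpleGroup S := (MulEquiv.isSimpleGroup_congr e).1 inferInstance
  have hSn : ∃ a b : S, a * b ≠ b * a := by
    obtain ⟨a, b, hab⟩ := hT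
    exact ⟨e a, e b, fun h => hab (e.injective (by rw [map_mul, map_mul, h]))⟩
  obtain ⟨A, h, Tt, n, X, hW, R, hG, hX, hconn, hBT, -, -⟩ := HasFiltQ.pack hs (KFacts.RgdLieCharP.center_eq_bot hSn) hQ
  obtain ⟨D⟩ := R1.ofPSys hSn _ (rk_ofRGD R hBT hG hX hconn)
  exact ⟨D.ofEquiv e⟩

open Cfsg.Agent.H218.OWN in
theorem r1_data_psl {F : Type} [Field F] [Fintype F] {p : ℕ} [Fact p.Prime] [CharP F p] {T : Type} [Group T] [Finite T]
    [IsSimpleGroup T] (hT : ∃ a b : T, a * b ≠ b * a) (e : T ≃* Matrix.ProjectiveSpecialLinearGroup (Fin 2) F) :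
    Nonempty (R1 p T) := R1.ofFiltQ hT (fq_PSL (F := F) 1 (p := p)) e

open Cfsg.Agent.H218.OWN in
theorem r1_data_psu {F : Type} [Field F] [Fintype F] {q : ℕ} (hF : Fintype.card F = q ^ 2) {p : ℕ} [Fact p.Prime]
    [CharP F p] {T : Type} [Group T] [Finite T]
    [IsSimpleGroup T] (hT : ∃ a b : T, a * b ≠ b * a) (e : T ≃* PSU 3 F q) :
    Nonempty (R1 p T) := R1.ofFiltQ hT (fq_PSU_odd hF (m := 1) le_rfl (p := p)) e

end Cfsg.Agent.H470.EPO
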