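import Cfsg.Agent.H470.EPO.OwnR1
import Cfsg.Agent.H470.EPO.R1Data
import Cfsg.Agent.H515.EPO.KTwoS
import Cfsg.Agent.H542.EPX.OwnGlue

/-!
# `OwnR1 p G` from its pieces (helper470)
-/

set_option autoImplicit false
set_option linter.unusedSectionVars false

namespace Cfsg.Agent.H470.EPO

open Cfsg.Agent.H284 Cfsg.Agent.H737.EPO Cfsg.Agent.H209.EPX Cfsg.Agent.KFacts.RgdFilt Cfsg.Agent.H542.EPX

/-- the small groups of rank one which are not covered by `R1.Hyp` -/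
def SmallR1 (p : ℕ) (T : Type) [Group T] : Prop :=
  (∃ (F : Type) (_ : Field F) (_ : Fintype F) (_ : CharP F p), (Fintype.card F = 4 ∨ Fintype.card F = 5 ∨
    Fintype.card F = 9) ∧ Nonempty (T ≃* Matrix.ProjectiveSpecialLinearGroup (Fin 2) F)) ∨
  (∃ (F : Type) (_ : Field F) (_ : Fintype F) (_ : CharP F p) (q : ℕ), Fintype.card F = q ^ 2 ∧ (q = 3 ∨ q = 5) ∧
    Nonempty (T ≃* PSU 3 F q))

/-- the hypotheses on `T`, four families -/
structure R1All : Prop where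
  psl : ∀ {p : ℕ} [Fact p.Prime] {F : Type} [Field F] [Fintype F] [CharP F p], 7 ≤ Fintype.card F →
    Fintype.card F ≠ 9 → ∀ {T : Type} [Group T], (T ≃* Matrix.ProjectiveSpecialLinearGroup (Fin 2) F) →
    ∃ D : R1 p T, D.Hyp
  psu : ∀ {p : ℕ} [Fact p.Prime] {F : Type} [Field F] [Fintype F] [CharP F p] {q : ℕ}, Fintype.card F = q ^ 2 →
    4 ≤ q → q ≠ 5 → ∀ {T : Type} [Group T], (T ≃* PSU 3 F q) → ∃ D : R1 p T, D.Hyp
  sz : ∀ {T : Type} [Group T], Lie.IsoSuzuki T → ∃ D : R1 2 T, D.Hyp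
  ree : ∀ {T : Type} [Group T], Lie.IsoRee T → ∃ D : R1 3 T, D.Hyp

/-- `RankOne p T` : small or `Hyp` -/
theorem rankOne_cases (h : R1All) {p : ℕ} [Fact p.Prime] {T : Type} [Group T] (hT : RankOne p T) :
    SmallR1 p T ∨ ∃ D : R1 p T, D.Hyp := by
  rcases hT with ⟨F, i1, i2, i3, h4, ⟨e⟩⟩ | ⟨F, i1, i2, i3, q, hF, h3, ⟨e⟩⟩ | ⟨hp, hT⟩ | ⟨hp, hT⟩
  · by_cases hs : Fintype.card F = 4 ∨ Fintype.card F = 5 ∨ Fintype.card F = 9
    · exact Or.inl (Or.inl ⟨F, i1, i2, i3, hs, ⟨e⟩⟩)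
    · right
      push Not at hs
      refine h.psl (F := F) ?_ hs.2.2 e
      -- `|F| ≠ 6`
      by_contra hcon
      have h6 : Fintype.card F = 6 := by omega
      obtain ⟨⟨n, hn⟩, hp, hc⟩ := FiniteField.card F p
      simp only [PNat.mk_coe] at hc
      rw [h6] at hc
      have h2 : 2 ∣ p ^ n := hc ▸ (by norm_num : 2 ∣ 6)
      have h3 : 3 ∣ p ^ n := hc ▸ (by norm_num : 3 ∣ 6)
      have h2' := (Nat.prime_dvd_prime_iff_eq Nat.prime_two hp).1 (Nat.prime_two.dvd_of_dvd_pow h2)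
      have h3' := (Nat.prime_dvd_prime_iff_eq Nat.prime_three hp).1 (Nat.prime_three.dvd_of_dvd_pow h3)
      omega
  · by_cases hs : q = 3 ∨ q = 5
    · exact Or.inl (Or.inr ⟨F, i1, i2, i3, q, hF, hs, ⟨e⟩⟩)
    · right
      push Not at hs
      exact h.psu hF (by omega) hs.2 e
  · subst hp
    exact Or.inr (h.sz hT)
  · subst hp
    exact Or.inr (h.ree hT)

/-- **`OwnR1 p G` from its pieces.** -/
theorem ownR1_of (hR : R1All) {G : Type} [Group G] [Finite G] [IsSimpleGroup G] {p : ℕ} [Fact p.Prime]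
    (hG : HasFilt p G)
    (hK2 : ∀ (H N : Subgroup G) (T : Type) [Group T] (k : ℕ) (e : N ≃* (Fin k → T)), EPS H N e → 2 ≤ k →
      RankOne p T → False)
    (hsm : ∀ (H N : Subgroup G) (T : Type) [Group T] (e : N ≃* (Fin 1 → T)), EPS H N e → SmallR1 p T → False) :
    OwnR1 p G := by
  intro H N T _ k e h hT
  have hpos := h.pos
  rcases (by omega : k = 1 ∨ 2 ≤ k) with rfl | hk
  · rcases rankOne_cases hR hT with h1 | ⟨D, hD⟩
    · exact hsm H N T e h h1
    · exact own_r1_G h hG D hD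
  · exact hK2 H N T k e h hk hT

/-- the data exist for all the groups of rank one -/
theorem r1_data (h : R1All) {p : ℕ} [Fact p.Prime] {T : Type} [Group T] [Finite T] [IsSimpleGroup T]
    (hab : ∃ a b : T, a * b ≠ b * a) (hT : RankOne p T) : Nonempty (R1 p T) := by
  rcases hT with ⟨F, i1, i2, i3, h4, ⟨e⟩⟩ | ⟨F, i1, i2, i3, q, hF, h3, ⟨e⟩⟩ | ⟨hp, hT⟩ | ⟨hp, hT⟩
  · exact r1_data_psl hab e
  · exact r1_data_psu hF hab e
  · subst hp
    obtain ⟨D, -⟩ := h.sz hT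
    exact ⟨D⟩
  · subst hp
    obtain ⟨D, -⟩ := h.ree hT
    exact ⟨D⟩

/-- **`OwnR1 p G`** from the four families and the small groups (`k ≥ 2` : helper515's `k_eq_one_R1`). -/
theorem ownR1_fin (hR : R1All) {G : Type} [Group G] [Finite G] [IsSimpleGroup G] {p : ℕ} [Fact p.Prime]
    (hG : HasFilt p G)
    (hsm : ∀ (H N : Subgroup G) (T : Type) [Group T] (e : N ≃* (Fin 1 → T)), EPS H N e → SmallR1 p T → False) :
    OwnR1 p G := by
  refine ownR1_of hR hG (fun H N T _ k e h hk hT => ?_) hsm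
  have hsimp := h.simple
  have hfin : Finite T := by
    have h1 : Finite (Fin k → T) := Finite.of_equiv N e.toEquiv
    exact Finite.of_surjective (fun f : Fin k → T => f ⟨0, h.pos⟩) fun t => ⟨fun _ => t, rfl⟩
  have hnab : ∃ a b : G, a * b ≠ b * a := by
    obtain ⟨a, b, hab⟩ := h.nab
    refine ⟨(e.symm (fun _ => a) : N), (e.symm (fun _ => b) : N), fun h3 => hab ?_⟩
    have h4 : e.symm (fun _ => a) * e.symm (fun _ => b) = e.symm (fun _ => b) * e.symm (fun _ => a) := Subtype.ext h3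
    rw [← map_mul, ← map_mul] at h4
    exact congrFun (e.symm.injective h4) ⟨0, h.pos⟩
  obtain ⟨D⟩ := r1_data hR h.nab hT
  have h1 := H515.EPO.KTwo.k_eq_one_R1 h hG hnab (j := MonoidHom.id G) Function.injective_id
    (by rw [MonoidHom.range_eq_top.2 (fun x => ⟨x, rfl⟩)]; infer_instance)
    (by rw [MonoidHom.range_eq_top.2 (fun x => ⟨x, rfl⟩)]; exact le_top) D
  omega

end Cfsg.Agent.H470.EPO
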