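import Cfsg.Agent.H375.EPR.Abs
import Cfsg.Agent.H470.EPO.R1Y

/-!
# Counting lemmas for rank one (helper470)
-/

set_option autoImplicit false
set_option linter.unusedSectionVars false

namespace Cfsg.Agent.H470.EPO

open Cfsg.Agent.H284 Cfsg.Agent.H284.EPA MulAction Subgroup
open Cfsg.Agent.H375.EPR

section Count

variable {G Ω : Type*} [Group G] [MulAction G Ω] [Finite G] [Finite Ω] [FaithfulSMul G Ω]

theorem zpow_cj {y : G} {B : Subgroup G} (hyB : cj y B = B) {g : G} (hg : g ∈ zpowers y) : cj g B = B := by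
  have h1 : zpowers y ≤ normalizer (B : Set G) := by
    rw [zpowers_le, mem_normalizer_iff_map_conj_eq]
    exact hyB
  have h2 := h1 hg
  rw [mem_normalizer_iff_map_conj_eq] at h2
  exact h2

theorem isPGroup_zpowers {y : G} {p m : ℕ} (hm : y ^ p ^ m = 1) : IsPGroup p (zpowers y) := by
  rintro ⟨x, hx⟩
  obtain ⟨n, rfl⟩ := mem_zpowers_iff.1 hx
  refine ⟨m, Subtype.ext ?_⟩
  show (y ^ n) ^ p ^ m = 1
  rw [← zpow_natCast, ← zpow_mul, mul_comm, zpow_mul, zpow_natCast, hm, one_zpow]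

/-- `p ∣ |l_B|` -/
theorem p_dvd (h : EPA G Ω) {a : Ω} {y : G} (hy : y • a ≠ a) {B : Subgroup G}
    (hB : B = stabilizer G a ⊓ stabilizer G (y • a)) (hB1 : B ≠ ⊥) (hyB : cj y B = B) {p m : ℕ} [Fact p.Prime]
    (hm : y ^ p ^ m = 1) : p ∣ (fixPts Ω B).ncard := by
  let S : SubMulAction (zpowers y) Ω :=
    { carrier := fixPts Ω B
      smul_mem' := fun g c hc => smul_mem_line (zpow_cj hyB g.2) hc }
  have h1 := (isPGroup_zpowers hm).card_modEq_card_fixedPoints S
  have h2 : IsEmpty (fixedPoints (zpowers y) S) := by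
    refine ⟨fun ⟨c, hc⟩ => ?_⟩
    have h3 := hc ⟨y, mem_zpowers y⟩
    have h4 : y • (c : Ω) = c := congrArg Subtype.val h3
    have h5 := reg_line h (a := a) (b := y • a) hy (by rw [← hB]; exact hB1) (c := c) (by rw [← hB]; exact c.2)
      (g := y) (by rw [← hB]; exact hyB) h4
    exact hy (mem_inf.1 h5).1
  have h6 : Nat.card (fixedPoints (zpowers y) S) = 0 := Nat.card_of_isEmpty
  rw [h6] at h1
  exact (Nat.modEq_zero_iff_dvd.1 h1)

/-- `|l_B| = p` gives `y ^ p ∈ G_a` -/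
theorem pow_p (h : EPA G Ω) {a : Ω} {y : G} (hy : y • a ≠ a) {B : Subgroup G}
    (hB : B = stabilizer G a ⊓ stabilizer G (y • a)) (hyB : cj y B = B) {p m : ℕ} [hp : Fact p.Prime]
    (hm : y ^ p ^ m = 1) (hs : (fixPts Ω B).ncard ≤ p) : y ^ p • a = a := by
  let K : Subgroup (zpowers y) := stabilizer (zpowers y) a
  have h1 : K.index ≤ p := by
    have h2 : K.index = Nat.card (orbit (zpowers y) a) := (index_stabilizer _ _)
    rw [h2]
    refine le_trans ?_ hs
    have h3 : orbit (zpowers y) a ⊆ fixPts Ω B := by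
      rintro _ ⟨g, rfl⟩
      exact smul_mem_line (zpow_cj hyB g.2) (by rw [hB]; exact mem_fixPts.2 inf_le_left)
    exact Set.ncard_le_ncard h3 (Set.toFinite _)
  have h2 : K.index ∣ p ^ m := by
    have h3 : K.index ∣ Nat.card (zpowers y) := K.index_dvd_card
    rw [Nat.card_zpowers] at h3
    exact h3.trans (orderOf_dvd_of_pow_eq_one hm)
  obtain ⟨j, -, hj⟩ := (Nat.dvd_prime_pow hp.out).1 h2
  have h3 : j = 1 := by
    have h4 : j ≠ 0 := by
      rintro rfl
      rw [pow_zero, index_eq_one] at hj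
      have : (⟨y, mem_zpowers y⟩ : zpowers y) ∈ K := by rw [hj]; trivial
      exact hy this
    have h5 : p ^ j ≤ p ^ 1 := by rw [← hj, pow_one]; exact h1
    have h6 := (Nat.pow_le_pow_iff_right hp.out.one_lt).1 h5
    omega
  rw [h3, pow_one] at hj
  have h4 := K.pow_index_mem (⟨y, mem_zpowers y⟩ : zpowers y)
  rw [hj] at h4
  exact h4

/-- the points of `fix(X)` when at most three lines through `a` are in `fix(X)` -/
theorem fix_three (h : EPA G Ω) {a : Ω} {w y : G} (hw : w • a = a) (hy : y • a ≠ a) {B : Subgroup G}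
    (hB : B = stabilizer G a ⊓ stabilizer G (y • a)) (hwB : cj w B ≠ B) {X : Subgroup G} (hXB : X ≤ B)
    (hyX : cj y X = X) {M₃ : Subgroup G}
    (hr : ∀ M ∈ linesD X a, M = B ∨ M = cj w B ∨ M = M₃) :
    (linesD X a).ncard ≤ 3 ∧ (fixPts Ω X).ncard ≤ 1 + 2 * ((fixPts Ω B).ncard - 1) + 2 := by
  classical
  have hr3 : (linesD X a).ncard ≤ 3 := by
    have h1 : linesD X a ⊆ (({B, cj w B, M₃} : Finset (Subgroup G)) : Set (Subgroup G)) := by
      intro M hM
      rcases hr M hM with h2 | h2 | h2 <;> simp [h2]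
    refine (Set.ncard_le_ncard h1 (Set.toFinite _)).trans ?_
    rw [Set.ncard_coe_finset]
    exact Finset.card_le_three
  refine ⟨hr3, ?_⟩
  have ha : ∀ M : Subgroup G, M ≤ stabilizer G a → (fixPts Ω M \ {a}).ncard = (fixPts Ω M).ncard - 1 := by
    intro M hM
    rw [Set.ncard_sdiff_singleton_of_mem (mem_fixPts.2 hM)]
  have hBa : B ≤ stabilizer G a := by rw [hB]; exact inf_le_left
  have hwBa : cj w B ≤ stabilizer G a := by
    have h1 := cj_mono (x := w) hBa
    rwa [← stab_smul, hw] at h1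
  -- the third line
  let S₃ : Set Ω := {c | c ∈ fixPts Ω M₃ ∧ c ≠ a ∧ M₃ ∈ linesD X a ∧ M₃ ≠ B}
  have hS₃ : S₃.ncard ≤ 2 := by
    by_cases h3 : M₃ ∈ linesD X a ∧ M₃ ≠ B
    · have h4 : (fixPts Ω M₃).ncard ≤ 3 := by
        have h5 := h.line_bound h3.1.1 h3.1.2 (c := y • a) (hXB.trans (by rw [hB]; exact inf_le_right)) (by
          intro h6
          apply h3.2
          obtain ⟨⟨b, hb, hM⟩, -⟩ := h3.1
          rw [hM] at h6 ⊢
          rw [hB]
          exact (h.stab_eq hb hy h6).symm)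
        have h6 := ncard_linesD X a y
        rw [hyX] at h6
        rw [h6] at h5
        exact h5.trans hr3
      have h5 : S₃ ⊆ fixPts Ω M₃ \ {a} := fun c hc => ⟨hc.1, hc.2.1⟩
      have h6 : M₃ ≤ stabilizer G a := by
        obtain ⟨⟨b, hb, hM⟩, -⟩ := h3.1
        rw [hM]; exact inf_le_left
      have h7 := Set.ncard_le_ncard h5 (Set.toFinite _)
      rw [ha _ h6] at h7
      omega
    · have : S₃ = ∅ := by
        ext c
        constructor
        · intro hc
          exact (h3 hc.2.2).elim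
        · intro hc
          exact hc.elim
      rw [this, Set.ncard_empty]
      omega
  have hsub : fixPts Ω X ⊆ insert a ((fixPts Ω B \ {a}) ∪ (fixPts Ω (cj w B) \ {a}) ∪ S₃) := by
    intro c hc
    by_cases hca : c = a
    · exact Or.inl hca
    right
    have h1 : stabilizer G a ⊓ stabilizer G c ∈ linesD X a := ⟨⟨c, hca, rfl⟩, le_inf (hXB.trans hBa) hc⟩
    by_cases h4 : stabilizer G a ⊓ stabilizer G c = B
    · exact Or.inl (Or.inl ⟨mem_fixPts.2 (by rw [← h4]; exact inf_le_right), hca⟩)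
    rcases hr _ h1 with h2 | h2 | h2
    · exact (h4 h2).elim
    · exact Or.inl (Or.inr ⟨mem_fixPts.2 (by rw [← h2]; exact inf_le_right), hca⟩)
    · right
      refine ⟨mem_fixPts.2 (by rw [← h2]; exact inf_le_right), hca, ?_, ?_⟩
      · rw [← h2]; exact h1
      · rw [← h2]; exact h4
  have h1 := Set.ncard_le_ncard hsub (Set.toFinite _)
  have h2 := Set.ncard_insert_le a ((fixPts Ω B \ {a}) ∪ (fixPts Ω (cj w B) \ {a}) ∪ S₃)
  have h3 := Set.ncard_union_le ((fixPts Ω B \ {a}) ∪ (fixPts Ω (cj w B) \ {a})) S₃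
  have h4 := Set.ncard_union_le (fixPts Ω B \ {a}) (fixPts Ω (cj w B) \ {a})
  rw [ha _ hBa, ha _ hwBa, ncard_fix_cj] at h4
  omega

theorem six_false {A : Type*} [Group A] [Finite A] (hA : Nat.card A ≤ 7) {a b : A} (ha : a ^ 3 = 1) (ha1 : a ≠ 1)
    (hb : b ^ 3 = 1) (hab : b ∉ zpowers a) : False := by
  have h3 : orderOf a = 3 := orderOf_eq_prime ha ha1
  have h1 : Nat.card (zpowers a) = 3 := by rw [Nat.card_zpowers, h3]
  have h2 := (zpowers a).card_mul_index
  rw [h1] at h2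
  have h4 : (zpowers a).index = 1 ∨ (zpowers a).index = 2 := by
    have h5 : (zpowers a).index ≠ 0 := index_ne_zero_of_finite
    omega
  rcases h4 with h4 | h4
  · rw [index_eq_one] at h4
    exact hab (by rw [h4]; trivial)
  · have h5 := sq_mem_of_index_two h4 (b ^ 2)
    apply hab
    have h6 : (b ^ 2) ^ 2 = b := by
      rw [← pow_mul]
      calc b ^ (2 * 2) = b ^ 3 * b := by rw [← pow_succ]
        _ = b := by rw [hb, one_mul]
    rwa [h6] at h5

theorem four_comm {A : Type*} [Group A] [Finite A] (hA : Nat.card A ≤ 5) {a b : A} (ha : a ^ 2 = 1) (ha1 : a ≠ 1)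
    (hab : b ∉ zpowers a) : a * b = b * a := by
  have h3 : orderOf a = 2 := orderOf_eq_prime ha ha1
  have h1 : Nat.card (zpowers a) = 2 := by rw [Nat.card_zpowers, h3]
  have h2 := (zpowers a).card_mul_index
  rw [h1] at h2
  have h4 : (zpowers a).index = 1 ∨ (zpowers a).index = 2 := by
    have h5 : (zpowers a).index ≠ 0 := index_ne_zero_of_finite
    omega
  rcases h4 with h4 | h4
  · rw [index_eq_one] at h4
    exact (hab (by rw [h4]; trivial)).elim
  · rw [h4] at h2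
    have : Fact (Nat.Prime 2) := ⟨Nat.prime_two⟩
    exact (IsPGroup.isMulCommutative_of_card_eq_prime_sq (p := 2) (G := A) (by rw [← h2]; norm_num)).is_comm.comm a b

theorem quot_main {C : Subgroup G} {a : Ω} {X : Subgroup G} (hXa : X ≤ stabilizer G a) (hC : ∀ c ∈ C, cj c X = X)
    {y y' : G} (hy : y ∈ C) (hy' : y' ∈ C) (hya : y • a ≠ a) (hyn : ∀ c ∈ C, c • a = a → c • y • a = y • a)
    (hyn' : ∀ c ∈ C, c • a = a → c • y' • a = y' • a) {p : ℕ} (hyp : y ^ p • a = a) (hyp' : y' ^ p • a = a)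
    (hne : ∀ i : ℤ, y' • a ≠ y ^ i • a) :
    (p = 3 → (fixPts Ω X).ncard ≤ 7 → False) ∧
      (p = 2 → (fixPts Ω X).ncard ≤ 5 → (y * y' * y⁻¹ * y'⁻¹) • a = a) := by
  let C₀ : Subgroup G := C ⊓ stabilizer G a
  let NC : Subgroup G := C ⊓ normalizer (C₀ : Set G)
  let K : Subgroup NC := C₀.subgroupOf NC
  have hnorm : ∀ z ∈ C, (∀ c ∈ C, c • a = a → c • z • a = z • a) → z ∈ NC := by
    intro z hz hzn
    refine mem_inf.2 ⟨hz, ?_⟩
    have h1 : ∀ c ∈ C₀, z⁻¹ * c * z ∈ C₀ := by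
      intro c hc
      refine mem_inf.2 ⟨C.mul_mem (C.mul_mem (C.inv_mem hz) (mem_inf.1 hc).1) hz, ?_⟩
      show (z⁻¹ * c * z) • a = a
      rw [mul_smul, mul_smul, hzn c (mem_inf.1 hc).1 (mem_inf.1 hc).2, inv_smul_smul]
    have h2 : cj z⁻¹ C₀ = C₀ := Cfsg.Agent.H737.EPO.cj_eq_of_nm (by simpa using h1)
    rw [mem_normalizer_iff_map_conj_eq]
    show cj z C₀ = C₀
    conv_lhs => rw [← h2]
    rw [cj_cj_inv]
  have hyN := hnorm y hy hyn
  have hyN' := hnorm y' hy' hyn'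
  have hKn : K.Normal := by
    constructor
    intro k hk g
    exact ((mem_normalizer_iff.1 (mem_inf.1 g.2).2) k).1 hk
  have hmem : ∀ g : NC, g ∈ K ↔ (g : G) • a = a := by
    intro g
    constructor
    · intro h
      exact (mem_inf.1 (show (g : G) ∈ C₀ from h)).2
    · intro h
      show (g : G) ∈ C₀
      exact mem_inf.2 ⟨(mem_inf.1 g.2).1, h⟩
  have hcard : Nat.card (NC ⧸ K) ≤ (fixPts Ω X).ncard := by
    have h1 : K = stabilizer NC a := by
      ext g
      rw [hmem]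
      rfl
    have h2 : Nat.card (NC ⧸ K) = Nat.card (orbit NC a) := by
      rw [h1]
      exact Nat.card_congr (orbitEquivQuotientStabilizer NC a).symm
    rw [h2]
    have h3 : orbit NC a ⊆ fixPts Ω X := by
      rintro _ ⟨g, rfl⟩
      have h4 := (smul_mem_fixPts (M := X) (c := a) (g := (g : G))).2 (mem_fixPts.2 hXa)
      rwa [hC _ (mem_inf.1 g.2).1] at h4
    exact Set.ncard_le_ncard h3 (Set.toFinite _)
  let qa : NC ⧸ K := QuotientGroup.mk ⟨y, hyN⟩
  let qb : NC ⧸ K := QuotientGroup.mk ⟨y', hyN'⟩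
  have h1 : qa ^ p = 1 := by
    have : (QuotientGroup.mk (⟨y, hyN⟩ ^ p) : NC ⧸ K) = 1 := (QuotientGroup.eq_one_iff _).2 ((hmem _).2 hyp)
    exact this
  have h2 : qb ^ p = 1 := by
    have : (QuotientGroup.mk (⟨y', hyN'⟩ ^ p) : NC ⧸ K) = 1 := (QuotientGroup.eq_one_iff _).2 ((hmem _).2 hyp')
    exact this
  have h3 : qa ≠ 1 := fun e => hya ((hmem _).1 ((QuotientGroup.eq_one_iff _).1 e))
  have h4 : qb ∉ zpowers qa := by
    intro h5
    obtain ⟨i, hi⟩ := mem_zpowers_iff.1 h5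
    have h6 : (QuotientGroup.mk (⟨y, hyN⟩ ^ i) : NC ⧸ K) = QuotientGroup.mk ⟨y', hyN'⟩ := hi
    have h7 := (hmem _).1 (QuotientGroup.eq.1 h6)
    apply hne i
    have h8 : ((y ^ i)⁻¹ * y') • a = a := h7
    rw [mul_smul, inv_smul_eq_iff] at h8
    exact h8
  constructor
  · rintro rfl hle
    exact six_false (hcard.trans hle) h1 h3 h2 h4
  · rintro rfl hle
    have h5 := four_comm (hcard.trans hle) h1 h3 h4
    have h6 : qa * qb * qa⁻¹ * qb⁻¹ = 1 := by
      rw [h5]; group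
    have h7 : (QuotientGroup.mk (⟨y, hyN⟩ * ⟨y', hyN'⟩ * ⟨y, hyN⟩⁻¹ * ⟨y', hyN'⟩⁻¹) : NC ⧸ K) = 1 := h6
    exact (hmem _).1 ((QuotientGroup.eq_one_iff _).1 h7)

end Count

end Cfsg.Agent.H470.EPO
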